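import Cfsg.Agent.H473.EP.Gen
import Cfsg.Agent.S0813
import Cfsg.Agent.S0265
import Cfsg.Agent.S0242
import Cfsg.Agent.S0280
import Cfsg.Agent.KFacts.SuzOut
import Cfsg.Agent.SporadicRecognition.SuzOrder

/-!
# S3499, residual rows (helper473): orders

* lower bounds for `|Q|` in terms of the order formulas for `SL_n(q)` and `SU_12(q)`;
* `|Aut L|` for `L = L₂(23)`, `L₃(4)`, `Suz`.
-/

set_option autoImplicit false
set_option linter.unusedSectionVars false

namespace Cfsg.Agent.H473.EP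

open Subgroup Cfsg.Agent.H284 Cfsg.Agent.H419.EP ArithmeticFunction
open scoped MatrixGroups

/-! ## lower bounds -/

theorem card_sl_le {n : ℕ} {F : Type*} [Field F] [Fintype F] :
    Nat.card (Matrix.SpecialLinearGroup (Fin n) F) ≤ Nat.card (Cfsg.Geo.specialLinear (Fin n) F) := by
  let f : Matrix.SpecialLinearGroup (Fin n) F → Cfsg.Geo.specialLinear (Fin n) F := fun g =>
    ⟨(g : GL (Fin n) F), by
      rw [Cfsg.Geo.specialLinear, MonoidHom.mem_ker]
      ext
      simp⟩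
  refine Nat.card_le_card_of_injective f ?_
  intro g h hgh
  apply Subtype.ext
  have h1 := congrArg (fun x : Cfsg.Geo.specialLinear (Fin n) F => ((x : GL (Fin n) F) : Matrix (Fin n) (Fin n) F)) hgh
  exact h1

/-- `|Q| ≥ q ^ (n (n - 1))` if `Q = PSL_n(q)`, `n ≥ 2` -/
theorem sl_low {Q : Type*} [Group Q] [Finite Q] {n : ℕ} (hn : 2 ≤ n) {F : Type*} [Field F] [Fintype F]
    (m : Model Q (Cfsg.Geo.specialLinear (Fin n) F)) : Fintype.card F ^ (n * (n - 1)) ≤ Nat.card Q := by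
  set q := Fintype.card F with hq
  have hq2 : 2 ≤ q := Fintype.one_lt_card
  have h1 := model_card_le m
  have h2 := card_sl_le (n := n) (F := F)
  have h3 := Cfsg.Agent.S0242.result hq.symm n (by omega)
  have h4 : (q ^ (n - 1) * (q - 1)) ^ n ≤ ∏ i : Fin n, (q ^ n - q ^ (i : ℕ)) := by
    calc (q ^ (n - 1) * (q - 1)) ^ n = ∏ i : Fin n, (q ^ (n - 1) * (q - 1)) := by
          rw [Finset.prod_const, Finset.card_univ, Fintype.card_fin]
      _ ≤ _ := by
        refine Finset.prod_le_prod' fun i _ => ?_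
        have e : q ^ (n - 1) * (q - 1) = q ^ n - q ^ (n - 1) := by
          rw [Nat.mul_sub, mul_one, ← pow_succ, Nat.sub_add_cancel (by omega)]
        rw [e]
        exact Nat.sub_le_sub_left (Nat.pow_le_pow_right (by omega) (by have := i.2; omega)) _
  rw [← h3] at h4
  have h5 : (q - 1) * Nat.card (Matrix.SpecialLinearGroup (Fin n) F) ≤ (q - 1) ^ 2 * Nat.card Q := by
    rw [pow_two, mul_assoc]
    exact Nat.mul_le_mul_left _ (h2.trans h1)
  have h6 : (q - 1) ^ 2 * (q ^ (n * (n - 1)) * (q - 1) ^ (n - 2)) ≤ (q - 1) ^ 2 * Nat.card Q := by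
    refine le_trans (le_of_eq ?_) (h4.trans h5)
    rw [mul_pow, ← pow_mul, mul_comm n (n - 1)]
    obtain ⟨k, rfl⟩ : ∃ k, n = k + 2 := ⟨n - 2, by omega⟩
    rw [Nat.add_sub_cancel, pow_add]
    ring
  have h7 := Nat.le_of_mul_le_mul_left h6 (Nat.pow_pos (by omega))
  refine le_trans (Nat.le_mul_of_pos_right _ (Nat.pow_pos (by omega))) h7

theorem card_su_le {n q : ℕ} {F : Type*} [Field F] [Fintype F] :
    Nat.card (Cfsg.SU n F q) ≤ Nat.card (Cfsg.GU n F q ⊓ Cfsg.Geo.specialLinear (Fin n) F : Subgroup (GL (Fin n) F)) := by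
  let f : Cfsg.SU n F q → (Cfsg.GU n F q ⊓ Cfsg.Geo.specialLinear (Fin n) F : Subgroup (GL (Fin n) F)) := fun g =>
    ⟨((g : Matrix.SpecialLinearGroup (Fin n) F) : GL (Fin n) F), by
      refine ⟨?_, ?_⟩
      · exact g.2
      · change _ ∈ Cfsg.Geo.specialLinear (Fin n) F
        rw [Cfsg.Geo.specialLinear, MonoidHom.mem_ker]
        ext
        simp⟩
  refine Nat.card_le_card_of_injective f ?_
  intro g h hgh
  apply Subtype.ext
  apply Subtype.ext
  have h1 := congrArg (fun x : (Cfsg.GU n F q ⊓ Cfsg.Geo.specialLinear (Fin n) F : Subgroup (GL (Fin n) F)) =>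
    ((x : GL (Fin n) F) : Matrix (Fin n) (Fin n) F)) hgh
  exact h1

theorem pair_le {q : ℕ} (hq : 2 ≤ q) (a : ℕ) : q ^ (2 * a + 1) ≤ (q ^ a + 1) * (q ^ (a + 1) - 1) := by
  have h1 : 1 ≤ q ^ a := Nat.one_le_pow _ _ (by omega)
  have h2 : q ^ a + 1 ≤ q ^ (a + 1) := by
    rw [pow_succ]
    nlinarith
  obtain ⟨c, hc⟩ : ∃ c, q ^ (a + 1) = c + 1 := ⟨q ^ (a + 1) - 1, by omega⟩
  have h3 : q ^ (2 * a + 1) = q ^ a * q ^ (a + 1) := by
    rw [← pow_add]
    congr 1
    ring
  rw [h3, hc, Nat.add_sub_cancel]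
  nlinarith

/-- `24 q ^ 3 |Q| ≥ q ^ 144` if `Q = PSU_12(q)` -/
theorem su12_low {Q : Type*} [Group Q] [Finite Q] {F : Type*} [Field F] [Fintype F] {q : ℕ} (hF : Fintype.card F = q ^ 2)
    (hq2 : 2 ≤ q) (m : Model Q (Cfsg.GU 12 F q ⊓ Cfsg.Geo.specialLinear (Fin 12) F)) :
    q ^ 144 ≤ 24 * q ^ 3 * Nat.card Q := by
  have h1 := model_card_le m
  have h2 := card_su_le (n := 12) (q := q) (F := F)
  have h3 := Cfsg.Agent.S0280.result hF 12 (by norm_num)
  have h4 : Nat.card (Cfsg.PSU 12 F q) ≤ Nat.card (Cfsg.SU 12 F q) :=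
    Nat.card_le_card_of_surjective (QuotientGroup.mk' _) (QuotientGroup.mk'_surjective _)
  have h5 : Nat.gcd 12 (q + 1) ≤ 12 := Nat.gcd_le_left _ (by norm_num)
  have h6 : q ^ 144 ≤ q ^ (12 * (12 - 1) / 2) * ∏ i ∈ Finset.range 12, (if Even i then q ^ (i + 1) + 1 else q ^ (i + 1) - 1) := by
    have e1 : ∏ i ∈ Finset.range 12, (if Even i then q ^ (i + 1) + 1 else q ^ (i + 1) - 1) =
        ((q ^ 1 + 1) * (q ^ 2 - 1)) * ((q ^ 3 + 1) * (q ^ 4 - 1)) * ((q ^ 5 + 1) * (q ^ 6 - 1)) *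
        ((q ^ 7 + 1) * (q ^ 8 - 1)) * ((q ^ 9 + 1) * (q ^ 10 - 1)) * ((q ^ 11 + 1) * (q ^ 12 - 1)) := by
      simp only [Finset.prod_range_succ, Finset.prod_range_zero]
      have o : ∀ k : ℕ, ¬ Even (2 * k + 1) := fun k h => by
        rcases h with ⟨r, hr⟩
        omega
      rw [if_pos (by decide), if_neg (by decide), if_pos (by decide), if_neg (by decide), if_pos (by decide),
        if_neg (by decide), if_pos (by decide), if_neg (by decide), if_pos (by decide), if_neg (by decide),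
        if_pos (by decide), if_neg (by decide)]
      ring
    rw [e1]
    calc q ^ 144 = q ^ 66 * (q ^ (2 * 1 + 1) * q ^ (2 * 3 + 1) * q ^ (2 * 5 + 1) * q ^ (2 * 7 + 1) * q ^ (2 * 9 + 1) *
          q ^ (2 * 11 + 1)) := by ring
      _ ≤ _ := by
        refine Nat.mul_le_mul (le_of_eq rfl) ?_
        exact Nat.mul_le_mul (Nat.mul_le_mul (Nat.mul_le_mul (Nat.mul_le_mul (Nat.mul_le_mul (pair_le hq2 1) (pair_le hq2 3))
          (pair_le hq2 5)) (pair_le hq2 7)) (pair_le hq2 9)) (pair_le hq2 11)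
  rw [← h3] at h6
  refine h6.trans ?_
  have h7 : Nat.card (Cfsg.PSU 12 F q) ≤ q ^ 2 * Nat.card Q := by
    refine h4.trans (h2.trans (h1.trans (Nat.mul_le_mul_right _ ?_)))
    rw [hF]
    exact Nat.sub_le _ _
  calc Nat.gcd 12 (q + 1) * ((q + 1) * Nat.card (Cfsg.PSU 12 F q)) ≤ 12 * ((2 * q) * (q ^ 2 * Nat.card Q)) :=
        Nat.mul_le_mul h5 (Nat.mul_le_mul (by omega) h7)
    _ = 24 * q ^ 3 * Nat.card Q := by ring

/-! ## automorphism groups -/

theorem card_aut_congr {L L' : Type*} [Group L] [Group L'] (e : L ≃* L') : Nat.card (MulAut L) = Nat.card (MulAut L') :=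
  Nat.card_congr (MulAut.congr e).toEquiv

theorem card_aut_l2_23 : Nat.card (MulAut (Matrix.ProjectiveSpecialLinearGroup (Fin 2) (ZMod 23))) = 12144 := by
  have : Fact (Nat.Prime 23) := ⟨by norm_num⟩
  have h1 := Cfsg.Agent.S0813.result (F := ZMod 23) 23 1 le_rfl (by rw [ZMod.card, pow_one]) 2 le_rfl (by norm_num)
  have h2 := Cfsg.Agent.S0265.result (F := ZMod 23) 2
  have h3 := Cfsg.Agent.S0242.result (F := ZMod 23) (ZMod.card 23) 2 (by norm_num)
  rw [Fin.prod_univ_two] at h3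
  norm_num [-Nat.card_eq_fintype_card] at h1 h3
  rw [h1, h2]
  omega

theorem card_aut_l3_4 {K : Type} [Field K] [Fintype K] (hK : Fintype.card K = 4) :
    Nat.card (MulAut (Matrix.ProjectiveSpecialLinearGroup (Fin 3) K)) = 241920 := by
  have : Fact (Nat.Prime 2) := ⟨by norm_num⟩
  have h1 := Cfsg.Agent.S0813.result (F := K) 2 2 (by norm_num) (by rw [hK]; norm_num) 3 (by norm_num) (by norm_num)
  have h2 := Cfsg.Agent.S0265.result (F := K) 3
  have h3 := Cfsg.Agent.S0242.result (F := K) hK 3 (by norm_num)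
  rw [Fin.prod_univ_three] at h3
  norm_num [-Nat.card_eq_fintype_card] at h1 h3
  rw [h1, h2]
  omega

theorem card_aut_suz : Nat.card (MulAut Cfsg.Spor.Suz) ≤ 896690995200 := by
  have h1 := card_mul_index (MulAut.conj : Spor.Suz →* MulAut Spor.Suz).range
  rw [← h1]
  have h2 : Nat.card (MulAut.conj : Spor.Suz →* MulAut Spor.Suz).range ≤ 448345497600 := by
    rw [← Cfsg.Agent.SporadicRecognition.SuzOrder.card_Suz]
    have : Finite Spor.Suz := Nat.finite_of_card_ne_zero (by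
      rw [Cfsg.Agent.SporadicRecognition.SuzOrder.card_Suz]
      norm_num)
    exact Nat.card_le_card_of_surjective _ (MonoidHom.rangeRestrict_surjective _)
  have h3 : (MulAut.conj : Spor.Suz →* MulAut Spor.Suz).range.index ≤ 2 := by
    rcases Cfsg.Agent.KFacts.SuzOut.index_eq with h | h <;> rw [h]
    norm_num
  exact (Nat.mul_le_mul h2 h3).trans (by norm_num)

theorem Om_l2_23 : cardFactors 12144 ≤ 7 := by
  have e : 12144 = 2 * 2 * 2 * 2 * 3 * 11 * 23 := by norm_num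
  rw [e]
  repeat rw [cardFactors_mul (by norm_num) (by norm_num)]
  rw [cardFactors_apply_prime (by norm_num : Nat.Prime 2), cardFactors_apply_prime (by norm_num : Nat.Prime 3),
    cardFactors_apply_prime (by norm_num : Nat.Prime 11), cardFactors_apply_prime (by norm_num : Nat.Prime 23)]

theorem Om_l3_4 : cardFactors 241920 ≤ 13 := by
  have e : 241920 = 2 ^ 8 * 3 ^ 3 * 5 * 7 := by norm_num
  rw [e]
  repeat rw [cardFactors_mul (by norm_num) (by norm_num)]
  rw [cardFactors_apply_prime_pow (by norm_num : Nat.Prime 2), cardFactors_apply_prime_pow (by norm_num : Nat.Prime 3),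
    cardFactors_apply_prime (by norm_num : Nat.Prime 5), cardFactors_apply_prime (by norm_num : Nat.Prime 7)]

end Cfsg.Agent.H473.EP
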