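import Cfsg.Agent.H473.EP.Low
import Cfsg.Agent.H419.EP.Targets

/-!
# S3499, residual rows S5863 and S5866 (helper473): `SL_12(q)`, `SU_12(q)`

Hypotheses of the rows: the lists S5863, S5866 at `Type` (`L5863`, `L5866`), and the bound for `Suz` (`BSuz`, task 5959).
-/

set_option autoImplicit false
set_option linter.unusedSectionVars false

namespace Cfsg.Agent.H473.EP

open Subgroup Cfsg.Agent.H284 Cfsg.Agent.H419.EP ArithmeticFunction
open scoped MatrixGroups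

/-- S5863 at `Type` -/
def L5863 : Prop := ∀ {F : Type} [Field F] [Fintype F] (H : Subgroup (Matrix.GeneralLinearGroup (Fin 12) F)),
    Cfsg.Geo.IsMaximalIn (Cfsg.Geo.specialLinear (Fin 12) F) H → Cfsg.Geo.InLinearResidualClass H →
    ∃ (P : Subgroup (Matrix.GeneralLinearGroup (Fin 12) F)) (p : ℕ), Cfsg.Geo.IsResidualCore H P ∧ p.Prime ∧ CharP F p ∧
    ((Nonempty ((P ⧸ (Cfsg.Geo.scalars (Fin 12) F).subgroupOf P) ≃* Matrix.ProjectiveSpecialLinearGroup (Fin 2) (ZMod 23)) ∧ Fintype.card F = p ∧ p ≠ 2 ∧ (p % 23 = 1 ∨ p % 23 = 2 ∨ p % 23 = 3 ∨ p % 23 = 4 ∨ p % 23 = 6 ∨ p % 23 = 8 ∨ p % 23 = 9 ∨ p % 23 = 12 ∨ p % 23 = 13 ∨ p % 23 = 16 ∨ p % 23 = 18)) ∨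
     ((∃ (K : Type) (_ : Field K) (_ : Fintype K), Fintype.card K = 4 ∧ Nonempty ((P ⧸ (Cfsg.Geo.scalars (Fin 12) F).subgroupOf P) ≃* Matrix.ProjectiveSpecialLinearGroup (Fin 3) K)) ∧ Fintype.card F = 49) ∨
     (Cfsg.Spor.IsoSuz (P ⧸ (Cfsg.Geo.scalars (Fin 12) F).subgroupOf P) ∧ Fintype.card F = p ∧ p % 3 = 1))

/-- S5866 at `Type` -/
def L5866 : Prop := ∀ {F : Type} [Field F] [Fintype F] (q : ℕ), Fintype.card F = q ^ 2 →
    ∀ H : Subgroup (Matrix.GeneralLinearGroup (Fin 12) F),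
    Cfsg.Geo.IsMaximalIn (Cfsg.GU 12 F q ⊓ Cfsg.Geo.specialLinear (Fin 12) F) H → Cfsg.Geo.InUnitaryResidualClass H →
    ∃ P : Subgroup (Matrix.GeneralLinearGroup (Fin 12) F), Cfsg.Geo.IsResidualCore H P ∧ q.Prime ∧
    ((Nonempty ((P ⧸ (Cfsg.Geo.scalars (Fin 12) F).subgroupOf P) ≃* Matrix.ProjectiveSpecialLinearGroup (Fin 2) (ZMod 23)) ∧ (q % 23 = 5 ∨ q % 23 = 7 ∨ q % 23 = 10 ∨ q % 23 = 11 ∨ q % 23 = 14 ∨ q % 23 = 15 ∨ q % 23 = 17 ∨ q % 23 = 19 ∨ q % 23 = 20 ∨ q % 23 = 21 ∨ q % 23 = 22)) ∨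
     (Cfsg.Spor.IsoSuz (P ⧸ (Cfsg.Geo.scalars (Fin 12) F).subgroupOf P) ∧ q % 3 = 2))

/-- the bound for `Suz` (task 5959, helper775) -/
def BSuz : Prop := ∀ {Q : Type} [Group Q] [Finite Q], IsSimpleGroup Q → ∀ {A : Subgroup Q} {Γ : Subgroup (MulAut Q)},
    EPT A Γ → HasSoc A Cfsg.Spor.Suz → A.index ≤ 2 ^ 82

section bounds

variable {Q : Type} [Group Q] [Finite Q] {A : Subgroup Q} {Γ : Subgroup (MulAut Q)}

theorem card_le_suz (hB : BSuz) (hs : IsSimpleGroup Q) (h : EPT A Γ) (hL : HasSoc A Cfsg.Spor.Suz) :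
    Nat.card Q ≤ 2 ^ 122 := by
  have : Finite Spor.Suz := Nat.finite_of_card_ne_zero (by
    rw [Cfsg.Agent.SporadicRecognition.SuzOrder.card_Suz]
    norm_num)
  rw [← A.card_mul_index]
  exact (Nat.mul_le_mul (hL.card_le.trans card_aut_suz) (hB hs h hL)).trans (by norm_num)

theorem card_le_l2_23 (h : EPT A Γ) (hL : HasSoc A (Matrix.ProjectiveSpecialLinearGroup (Fin 2) (ZMod 23))) :
    Nat.card Q ≤ 12144 ^ 15 := by
  have : Fact (Nat.Prime 23) := ⟨by norm_num⟩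
  have h1 := card_le_of_soc (k := 7) (N := 12144) h hL card_aut_l2_23 Om_l2_23
  exact h1

theorem card_le_l3_4 (h : EPT A Γ) {K : Type} [Field K] [Fintype K] (hK : Fintype.card K = 4)
    (hL : HasSoc A (Matrix.ProjectiveSpecialLinearGroup (Fin 3) K)) : Nat.card Q ≤ 241920 ^ 27 := by
  have h1 := card_le_of_soc (k := 13) (N := 241920) h hL (card_aut_l3_4 hK) Om_l3_4
  have e : 2 * 13 + 1 = 27 := by norm_num
  rw [e] at h1
  exact h1

end bounds

/-- **row S5863** -/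
theorem row_sl12 (hList : L5863) (hB : BSuz) {Q : Type} [Group Q] [Finite Q] (hs : IsSimpleGroup Q) {A : Subgroup Q}
    {Γ : Subgroup (MulAut Q)} (h : EPT A Γ) {F : Type} [Field F] [Fintype F]
    (m : Model Q (Cfsg.Geo.specialLinear (Fin 12) F)) (hres : Cfsg.Geo.InLinearResidualClass (m.hat A)) : False := by
  obtain ⟨P, p, hP, hp, hch, hc⟩ := hList _ (m.isMaximalIn h.max) hres
  have hL := hasSoc_of_core m hP
  have hlow := sl_low (by norm_num) m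
  rcases hc with ⟨⟨e⟩, hF, h2, -⟩ | ⟨⟨K, _, _, hK, ⟨e⟩⟩, hF⟩ | ⟨⟨e⟩, hF, h3⟩
  · have h4 := hlow.trans (card_le_l2_23 h (hL.congr e))
    rw [hF] at h4
    have h5 : 3 ≤ p := by
      have := hp.two_le
      omega
    have h6 := (Nat.pow_le_pow_left h5 (12 * (12 - 1))).trans h4
    norm_num at h6
  · have h4 := hlow.trans (card_le_l3_4 h hK (hL.congr e))
    rw [hF] at h4
    norm_num at h4
  · have h4 := hlow.trans (card_le_suz hB hs h (hL.congr e))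
    rw [hF] at h4
    have h5 : 2 ≤ p := hp.two_le
    have h6 := (Nat.pow_le_pow_left h5 (12 * (12 - 1))).trans h4
    norm_num at h6

/-- **row S5866** -/
theorem row_su12 (hList : L5866) (hB : BSuz) {Q : Type} [Group Q] [Finite Q] (hs : IsSimpleGroup Q) {A : Subgroup Q}
    {Γ : Subgroup (MulAut Q)} (h : EPT A Γ) {F : Type} [Field F] [Fintype F] {q : ℕ}
    (m : Model Q (Cfsg.GU 12 F q ⊓ Cfsg.Geo.specialLinear (Fin 12) F)) (hF : Fintype.card F = q ^ 2)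
    (hres : Cfsg.Geo.InUnitaryResidualClass (m.hat A)) : False := by
  obtain ⟨P, hP, hp, hc⟩ := hList q hF _ (m.isMaximalIn h.max) hres
  have hL := hasSoc_of_core m hP
  have hlow := su12_low hF hp.two_le m
  have hq2 := hp.two_le
  have hlow' : q ^ 141 ≤ 24 * Nat.card Q := by
    have e : q ^ 144 = q ^ 3 * q ^ 141 := by ring
    have e2 : 24 * q ^ 3 * Nat.card Q = q ^ 3 * (24 * Nat.card Q) := by ring
    rw [e, e2] at hlow
    exact Nat.le_of_mul_le_mul_left hlow (Nat.pow_pos (by omega))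
  rcases hc with ⟨⟨e⟩, h5⟩ | ⟨⟨e⟩, h3⟩
  · have h4 := hlow'.trans (Nat.mul_le_mul_left 24 (card_le_l2_23 h (hL.congr e)))
    have h5 : 5 ≤ q := by omega
    have h6 := (Nat.pow_le_pow_left h5 141).trans h4
    norm_num at h6
  · have h4 := hlow'.trans (Nat.mul_le_mul_left 24 (card_le_suz hB hs h (hL.congr e)))
    have h6 := (Nat.pow_le_pow_left hq2 141).trans h4
    norm_num at h6

end Cfsg.Agent.H473.EP
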